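import Cfsg.Agent.H617.Two.Defs
import Mathlib
set_option linter.all false

-- part: H547/Two/T5a
section
/-!
# S4543, task T5, first part: index two facts and the subgroup `W = Z(N_D(Q))`
-/

set_option autoImplicit false
set_option linter.unusedSectionVars false

namespace Cfsg.Agent.H547.Two

open Subgroup Cfsg.Agent.H617.Two

section
variable {D : Type*} [Group D] [Finite D] {Q R : Subgroup D} {y p q : D}

/-- index two facts for `N = N_D(Q)` -/
theorem idxN (hG : Nat.card D = 64) (hN : Nat.card (normalizer (Q : Set D)) = 32) (a b : D) :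
    a * b ∈ normalizer (Q : Set D) ↔
      (a ∈ normalizer (Q : Set D) ↔ b ∈ normalizer (Q : Set D)) := by
  apply Subgroup.mul_mem_iff_of_index_two
  have h := Subgroup.card_mul_index (normalizer (Q : Set D))
  rw [hG, hN] at h
  omega

/-- index two facts for `Q` in `N` -/
theorem idxQ (hQ : Nat.card Q = 16) (hN : Nat.card (normalizer (Q : Set D)) = 32) {a b : D}
    (ha : a ∈ normalizer (Q : Set D)) (hb : b ∈ normalizer (Q : Set D)) :
    a * b ∈ Q ↔ (a ∈ Q ↔ b ∈ Q) := by
  have hle : Q ≤ normalizer (Q : Set D) := Subgroup.le_normalizer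
  have h := Subgroup.card_mul_index (Q.subgroupOf (normalizer (Q : Set D)))
  have h1 : Nat.card (Q.subgroupOf (normalizer (Q : Set D))) = Nat.card Q :=
    Nat.card_congr (Subgroup.subgroupOfEquivOfLe hle).toEquiv
  rw [h1, hQ, hN] at h
  have h2 : (Q.subgroupOf (normalizer (Q : Set D))).index = 2 := by omega
  have h3 := Subgroup.mul_mem_iff_of_index_two h2 (a := ⟨a, ha⟩) (b := ⟨b, hb⟩)
  simpa [Subgroup.mem_subgroupOf] using h3

/-- `|R|` divides 4 -/
theorem cardR (h : Str Q R y p q) (hQ : Nat.card Q = 16) : Nat.card R ∣ 4 := by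
  have h1 := Subgroup.card_mul_index (R.subgroupOf Q)
  have h2 : Nat.card (R.subgroupOf Q) = Nat.card R :=
    Nat.card_congr (Subgroup.subgroupOfEquivOfLe h.RQ).toEquiv
  rw [h2, hQ] at h1
  have hi1 : (R.subgroupOf Q).index ≠ 1 := by
    intro h0
    rw [Subgroup.index_eq_one] at h0
    have : (⟨p, h.pQ⟩ : Q) ∈ R.subgroupOf Q := by rw [h0]; trivial
    exact h.pR (by simpa [Subgroup.mem_subgroupOf] using this)
  have hi2 : (R.subgroupOf Q).index ≠ 2 := by
    intro h0
    have h3 := Subgroup.mul_mem_iff_of_index_two h0 (a := ⟨p, h.pQ⟩) (b := ⟨q, h.qQ⟩)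
    have h4 : p * q ∈ R ↔ (p ∈ R ↔ q ∈ R) := by simpa [Subgroup.mem_subgroupOf] using h3
    have := h.pR
    have := h.qR
    have := h.pqR
    tauto
  have hd : (R.subgroupOf Q).index ∣ 2 ^ 4 := ⟨Nat.card R, by rw [Nat.mul_comm]; exact h1.symm⟩
  obtain ⟨k, hk, hk'⟩ := (Nat.dvd_prime_pow Nat.prime_two).1 hd
  rw [hk'] at h1 hi1 hi2
  interval_cases k
  · exact absurd rfl hi1
  · exact absurd rfl hi2
  · exact ⟨1, by omega⟩
  · exact ⟨2, by omega⟩
  · exact ⟨4, by omega⟩

/-- a group whose order divides 4 is abelian -/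
theorem comm_of_card_dvd_four (h : Nat.card R ∣ 4) {a b : D} (ha : a ∈ R) (hb : b ∈ R) :
    a * b = b * a := by
  obtain ⟨k, hk, hk'⟩ := (Nat.dvd_prime_pow Nat.prime_two).1 (show Nat.card R ∣ 2 ^ 2 from h)
  have : ∀ a b : R, a * b = b * a := by
    interval_cases k
    · have : Subsingleton R := (Nat.card_eq_one_iff_unique.1 (by simpa using hk')).1
      intro a b
      exact Subsingleton.elim _ _
    · have : Fact (Nat.Prime 2) := ⟨Nat.prime_two⟩
      have : IsCyclic R := isCyclic_of_prime_card (p := 2) (by simpa using hk')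
      have h3 : IsMulCommutative R := IsCyclic.isMulCommutative
      exact fun a b => h3.is_comm.comm a b
    · have : Fact (Nat.Prime 2) := ⟨Nat.prime_two⟩
      have h3 : IsMulCommutative R :=
        IsPGroup.isMulCommutative_of_card_eq_prime_sq (p := 2) (by simpa using hk')
      exact fun a b => h3.is_comm.comm a b
  exact congrArg Subtype.val (this ⟨a, ha⟩ ⟨b, hb⟩)

/-- In the abelian case: elements of `Q` commute. -/
theorem commQ (h : Str Q R y p q) (hQ : Nat.card Q = 16) (hs : p * p = 1) {a b : D}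
    (ha : a ∈ Q) (hb : b ∈ Q) : a * b = b * a := by
  have hR := cardR h hQ
  have hpq : p * q = q * p := by have := h.comm; rwa [hs, one_mul] at this
  have key : ∀ x : D, (x = 1 ∨ x = p ∨ x = q ∨ x = p * q) → (∀ r ∈ R, x * r = r * x) ∧
      x * p = p * x ∧ x * q = q * x := by
    rintro x (rfl | rfl | rfl | rfl)
    · simp
    · exact ⟨h.pc, rfl, hpq⟩
    · exact ⟨h.qc, hpq.symm, rfl⟩
    · refine ⟨fun r hr => ?_, ?_, ?_⟩
      · rw [mul_assoc, h.qc r hr, ← mul_assoc, h.pc r hr, mul_assoc]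
      · rw [mul_assoc, ← hpq]
      · rw [mul_assoc, ← mul_assoc q, ← hpq, mul_assoc]
  have key2 : ∀ x ∈ Q, ∃ k r, r ∈ R ∧ x = k * r ∧ (k = 1 ∨ k = p ∨ k = q ∨ k = p * q) := by
    intro x hx
    obtain ⟨r, hr, h1⟩ := h.cover x hx
    rcases h1 with rfl | rfl | rfl | rfl
    · exact ⟨1, x, hr, by simp, by simp⟩
    · exact ⟨p, r, hr, rfl, by simp⟩
    · exact ⟨q, r, hr, rfl, by simp⟩
    · exact ⟨p * q, r, hr, rfl, by simp⟩
  obtain ⟨k, r, hr, rfl, hk⟩ := key2 a ha
  obtain ⟨k', r', hr', rfl, hk'⟩ := key2 b hb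
  obtain ⟨h1, h2, h3⟩ := key k hk
  obtain ⟨h1', h2', h3'⟩ := key k' hk'
  have hkk : k * k' = k' * k := by
    rcases hk' with rfl | rfl | rfl | rfl
    · simp
    · exact h2
    · exact h3
    · rw [← mul_assoc, h2, mul_assoc, h3, ← mul_assoc]
  have hrr : r * r' = r' * r := comm_of_card_dvd_four hR hr hr'
  calc k * r * (k' * r') = k * (r * k') * r' := by group
    _ = k * (k' * r) * r' := by rw [h1' r hr]
    _ = (k * k') * (r * r') := by group
    _ = (k' * k) * (r' * r) := by rw [hkk, hrr]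
    _ = k' * (k * r') * r := by group
    _ = k' * (r' * k) * r := by rw [h1 r' hr']
    _ = _ := by group

/-- elements of `Q` centralized by `y` lie in `R ∪ pR` -/
theorem mem_of_comm (h : Str Q R y p q) (hs : p * p = 1) {x : D} (hx : x ∈ Q)
    (hc : y * x * y⁻¹ = x) : x ∈ R ∨ p * x ∈ R := by
  have hpq : p * q = q * p := by have := h.comm; rwa [hs, one_mul] at this
  have hyp : y * p * y⁻¹ = p := by rw [h.yp, hs, one_mul]
  obtain ⟨r, hr, h1⟩ := h.cover x hx
  have hry := h.yR r hr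
  rcases h1 with rfl | rfl | rfl | rfl
  · exact Or.inl hr
  · right
    rw [← mul_assoc, hs, one_mul]; exact hr
  · exfalso
    have h2 : y * (q * r) * y⁻¹ = (y * q * y⁻¹) * (y * r * y⁻¹) := by group
    rw [h2, h.yq, hpq] at hc
    have h3 : p = r * (y * r * y⁻¹)⁻¹ := by
      have : p * (y * r * y⁻¹) = r := by
        apply mul_left_cancel (a := q)
        rw [← mul_assoc]; exact hc
      exact eq_mul_inv_of_mul_eq this
    exact h.pR (h3 ▸ R.mul_mem hr (R.inv_mem hry))
  · exfalso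
    have h2 : y * (p * q * r) * y⁻¹ = (y * p * y⁻¹) * (y * q * y⁻¹) * (y * r * y⁻¹) := by group
    rw [h2, h.yq, hyp] at hc
    have h3 : p = r * (y * r * y⁻¹)⁻¹ := by
      have : p * (y * r * y⁻¹) = r := by
        apply mul_left_cancel (a := p * q)
        rw [← hc, ← mul_assoc, mul_assoc p q p, ← hpq]
      exact eq_mul_inv_of_mul_eq this
    exact h.pR (h3 ▸ R.mul_mem hr (R.inv_mem hry))

/-- `q r ∉ R ∪ pR` -/
theorem not_mem_of (h : Str Q R y p q) (hs : p * p = 1) {x : D} (hx : x ∈ R ∨ p * x ∈ R) :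
    ¬ (q * x ∈ R ∨ p * (q * x) ∈ R) := by
  have hpq : p * q = q * p := by have := h.comm; rwa [hs, one_mul] at this
  rintro h2
  rcases hx with hx | hx <;> rcases h2 with h2 | h2
  · exact h.qR ((R.mul_mem_cancel_right hx).1 h2)
  · rw [← mul_assoc] at h2
    exact h.pqR ((R.mul_mem_cancel_right hx).1 h2)
  · have h3 : q * x = p * q * (p * x) := by
      calc q * x = (p * p) * q * x := by rw [hs, one_mul]
        _ = p * (p * q) * x := by group
        _ = p * (q * p) * x := by rw [hpq]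
        _ = _ := by group
    rw [h3] at h2
    exact h.pqR ((R.mul_mem_cancel_right hx).1 h2)
  · have h3 : p * (q * x) = q * (p * x) := by
      rw [← mul_assoc, hpq, mul_assoc]
    rw [h3] at h2
    exact h.qR ((R.mul_mem_cancel_right hx).1 h2)

end

end Cfsg.Agent.H547.Two
end

-- part: H547/Two/T5b
section
/-!
# S4543, task T5, second part: a group generated by `q`, `g` with `⟨q, q^g⟩ = D8` normal
-/

set_option autoImplicit false
set_option linter.unusedSectionVars false

namespace Cfsg.Agent.H547.Two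

open Subgroup

section
variable {D : Type*} [Group D] [Finite D]

/-- the elements of `⟨q, q'⟩` -/
theorem mem_clo {p q t : D} (hp : p * p = 1) (hq : q * q = 1) (ht : t * t = 1)
    (hpq : p * q = q * p) (hpt : p * t = t * p) (htq : t * q = p * (q * t)) {x : D}
    (hx : x ∈ closure ({q, t} : Set D)) :
    ∃ i j k : Fin 2, x = p ^ (i : ℕ) * q ^ (j : ℕ) * t ^ (k : ℕ) := by
  have red : ∀ i j k : ℕ, ∃ i' j' k' : Fin 2,
      p ^ i * q ^ j * t ^ k = p ^ (i' : ℕ) * q ^ (j' : ℕ) * t ^ (k' : ℕ) := by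
    intro i j k
    refine ⟨⟨i % 2, Nat.mod_lt _ (by norm_num)⟩, ⟨j % 2, Nat.mod_lt _ (by norm_num)⟩,
      ⟨k % 2, Nat.mod_lt _ (by norm_num)⟩, ?_⟩
    rw [pow_eq_pow_mod i (by rw [pow_two]; exact hp : p ^ 2 = 1),
      pow_eq_pow_mod j (by rw [pow_two]; exact hq : q ^ 2 = 1),
      pow_eq_pow_mod k (by rw [pow_two]; exact ht : t ^ 2 = 1)]
  have hqi : q⁻¹ = q := inv_eq_of_mul_eq_one_right hq
  have hti : t⁻¹ = t := inv_eq_of_mul_eq_one_right ht
  have h1 : ∀ i j k : ℕ, q * (p ^ i * q ^ j * t ^ k) = p ^ i * q ^ (j + 1) * t ^ k := by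
    intro i j k
    have : Commute q (p ^ i) := (show Commute q p from hpq.symm).pow_right i
    rw [← mul_assoc, ← mul_assoc, this.eq, mul_assoc (p ^ i), ← pow_succ']
  have h2 : ∀ j : ℕ, t * q ^ j = p ^ j * q ^ j * t := by
    intro j
    induction j with
    | zero => simp
    | succ j ih =>
      have h3 : Commute (q ^ j) p := (show Commute q p from hpq.symm).pow_left j
      calc t * q ^ (j + 1) = (t * q ^ j) * q := by rw [pow_succ, mul_assoc]
        _ = p ^ j * q ^ j * (t * q) := by rw [ih, mul_assoc]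
        _ = p ^ j * (q ^ j * p) * (q * t) := by rw [htq]; simp only [mul_assoc]
        _ = p ^ j * (p * q ^ j) * (q * t) := by rw [h3.eq]
        _ = _ := by rw [pow_succ p, pow_succ q]; simp only [mul_assoc]
  have h4 : ∀ i j k : ℕ, t * (p ^ i * q ^ j * t ^ k) = p ^ (i + j) * q ^ j * t ^ (k + 1) := by
    intro i j k
    have h3 : Commute t (p ^ i) := (show Commute t p from hpt.symm).pow_right i
    calc t * (p ^ i * q ^ j * t ^ k) = (t * p ^ i) * q ^ j * t ^ k := by simp only [mul_assoc]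
      _ = p ^ i * (t * q ^ j) * t ^ k := by rw [h3.eq]; simp only [mul_assoc]
      _ = _ := by rw [h2, pow_add, pow_succ' t]; simp only [mul_assoc]
  induction hx using Subgroup.closure_induction_left with
  | one => exact ⟨0, 0, 0, by simp⟩
  | mul_left a ha y hy ih =>
    obtain ⟨i, j, k, rfl⟩ := ih
    rcases ha with rfl | ha
    · rw [h1]; exact red _ _ _
    · rw [Set.mem_singleton_iff] at ha; subst ha
      rw [h4]; exact red _ _ _
  | inv_mul_cancel a ha y hy ih =>
    obtain ⟨i, j, k, rfl⟩ := ih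
    rcases ha with rfl | ha
    · rw [hqi, h1]; exact red _ _ _
    · rw [Set.mem_singleton_iff] at ha; subst ha
      rw [hti, h4]; exact red _ _ _

theorem card_clo {p q t : D} (hp : p * p = 1) (hq : q * q = 1) (ht : t * t = 1)
    (hpq : p * q = q * p) (hpt : p * t = t * p) (htq : t * q = p * (q * t)) :
    Nat.card (closure ({q, t} : Set D)) ≤ 8 := by
  have h1 : ((closure ({q, t} : Set D) : Subgroup D) : Set D) ⊆
      Set.range (fun a : Fin 2 × Fin 2 × Fin 2 =>
        p ^ (a.1 : ℕ) * q ^ (a.2.1 : ℕ) * t ^ (a.2.2 : ℕ)) := by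
    intro x hx
    obtain ⟨i, j, k, h⟩ := mem_clo hp hq ht hpq hpt htq hx
    exact ⟨(i, j, k), h.symm⟩
  have h2 : Nat.card (closure ({q, t} : Set D)) ≤ (Set.range (fun a : Fin 2 × Fin 2 × Fin 2 =>
        p ^ (a.1 : ℕ) * q ^ (a.2.1 : ℕ) * t ^ (a.2.2 : ℕ))).ncard :=
    Set.ncard_le_ncard h1 (Set.finite_range _)
  refine h2.trans ?_
  rw [← Set.image_univ]
  refine (Set.ncard_image_le Set.finite_univ).trans ?_
  rw [Set.ncard_univ, Nat.card_eq_fintype_card]
  decide

/-- `g⁴ ∉ ⟨q, q^g⟩` -/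
theorem pow_four_not_mem (h64 : Nat.card D = 64) {p q g : D}
    (hgen : closure ({q, g} : Set D) = ⊤) (hp : p * p = 1) (hq : q * q = 1)
    (hpc : p ∈ center D) (htq : g * q * g⁻¹ * q = p * (q * (g * q * g⁻¹)))
    (h2 : g * (g * q * g⁻¹) * g⁻¹ ∈ closure ({q, g * q * g⁻¹} : Set D)) :
    g ^ 4 ∉ closure ({q, g * q * g⁻¹} : Set D) := by
  intro h4
  set t := g * q * g⁻¹ with ht
  set K := closure ({q, t} : Set D) with hK
  have htt : t * t = 1 := by
    calc t * t = g * (q * q) * g⁻¹ := by rw [ht]; group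
      _ = 1 := by rw [hq]; group
  have hc : Nat.card K ≤ 8 := card_clo hp hq htt ((mem_center_iff.1 hpc q).symm)
    ((mem_center_iff.1 hpc t).symm) htq
  have hqK : q ∈ K := subset_closure (by simp)
  have htK : t ∈ K := subset_closure (by simp)
  have hgN : g ∈ normalizer (K : Set D) := by
    apply mem_normalizer_fintype
    intro n hn
    have h5 : K ≤ K.comap (MulAut.conj g).toMonoidHom := by
      rw [hK, closure_le]
      rintro x (rfl | hx)
      · simpa [MulAut.conj_apply] using htK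
      · rw [Set.mem_singleton_iff] at hx; subst hx
        simpa [MulAut.conj_apply] using h2
    simpa [MulAut.conj_apply] using h5 hn
  have hN : normalizer (K : Set D) = ⊤ := by
    rw [eq_top_iff, ← hgen, closure_le]
    rintro x (rfl | hx)
    · exact le_normalizer hqK
    · rw [Set.mem_singleton_iff] at hx; subst hx
      exact hgN
  have hKn : K.Normal := normalizer_eq_top_iff.1 hN
  -- the quotient is generated by the image of `g`
  have hz : (zpowers (QuotientGroup.mk' K g)) = ⊤ := by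
    have h6 : (closure ({q, g} : Set D)).map (QuotientGroup.mk' K) = ⊤ := by
      rw [hgen, ← MonoidHom.range_eq_map]
      exact MonoidHom.range_eq_top.2 (QuotientGroup.mk'_surjective K)
    rw [eq_top_iff, ← h6, MonoidHom.map_closure, closure_le]
    rintro x ⟨y, hy, rfl⟩
    rcases hy with rfl | hy
    · have : QuotientGroup.mk' K y = 1 := (QuotientGroup.eq_one_iff y).2 hqK
      rw [this]; exact one_mem _
    · rw [Set.mem_singleton_iff] at hy; subst hy
      exact mem_zpowers _
  have h7 : Nat.card (D ⧸ K) ≤ 4 := by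
    have h8 : Nat.card (zpowers (QuotientGroup.mk' K g)) = Nat.card (D ⧸ K) := by
      rw [hz]; exact Nat.card_congr Subgroup.topEquiv.toEquiv
    rw [← h8, Nat.card_zpowers]
    apply orderOf_le_of_pow_eq_one (by norm_num)
    rw [← map_pow]
    exact (QuotientGroup.eq_one_iff _).2 h4
  have h9 := Subgroup.card_eq_card_quotient_mul_card_subgroup K
  rw [h64] at h9
  have : Nat.card (D ⧸ K) * Nat.card K ≤ 4 * 8 := Nat.mul_le_mul h7 hc
  omega

end

end Cfsg.Agent.H547.Two
end

-- part: H538/Two/Partner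
section
/-!
# S4543, T0: the partner lemma
-/

set_option autoImplicit false

namespace Cfsg.Agent.H538.Two

open Subgroup Cfsg.Agent.H617.Two

/-- In a `2`-group, a proper subgroup lies in a subgroup of index two. -/
theorem exists_index_two {D : Type*} [Group D] [Finite D] (h2 : IsPGroup 2 D)
    {H : Subgroup D} (hH : H ≠ ⊤) : ∃ M : Subgroup D, H ≤ M ∧ M.index = 2 := by
  have : Fact (Nat.Prime 2) := ⟨Nat.prime_two⟩
  obtain ⟨k, hk⟩ := (IsPGroup.iff_card (p := 2)).1 h2
  obtain ⟨m, hm⟩ := (IsPGroup.iff_card (p := 2)).1 (h2.to_subgroup H)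
  have hdvd : 2 ^ m ∣ 2 ^ k := by
    rw [← hm, ← hk]; exact Subgroup.card_subgroup_dvd_card H
  have hle : m ≤ k := (Nat.pow_dvd_pow_iff_le_right (by norm_num)).1 hdvd
  have hne : m ≠ k := by
    rintro rfl
    exact hH (Subgroup.eq_top_of_card_eq H (by rw [hm, hk]))
  obtain ⟨M, hM, hHM⟩ := Sylow.exists_subgroup_card_pow_prime_le (p := 2) (n := m) (m := k - 1)
    (by rw [hk]; exact pow_dvd_pow 2 (by omega)) H hm (by omega)
  refine ⟨M, hHM, ?_⟩
  have h := M.card_mul_index
  rw [hM, hk] at h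
  have h3 : 2 ^ k = 2 ^ (k - 1) * 2 := by
    rw [← pow_succ]; congr 1; omega
  rw [h3] at h
  exact Nat.eq_of_mul_eq_mul_left (by positivity) h

/-- Two subgroups of index two with the same generators (among `a`, `b`) are equal. -/
theorem eq_of_index_two {D : Type*} [Group D] {a b : D} (hgen : closure ({a, b} : Set D) = ⊤)
    {M N : Subgroup D} (hM : M.index = 2) (hN : N.index = 2) (ha : a ∈ M ↔ a ∈ N)
    (hb : b ∈ M ↔ b ∈ N) : M = N := by
  ext x
  have hx : x ∈ closure ({a, b} : Set D) := by rw [hgen]; trivial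
  induction hx using Subgroup.closure_induction with
  | mem x hx =>
    rcases hx with rfl | hx
    · exact ha
    · rw [Set.mem_singleton_iff] at hx; subst hx; exact hb
  | one => simp
  | mul x y _ _ hx hy =>
    rw [Subgroup.mul_mem_iff_of_index_two hM, Subgroup.mul_mem_iff_of_index_two hN]
    exact iff_congr hx hy
  | inv x _ hx => rw [inv_mem_iff, inv_mem_iff]; exact hx

theorem T0 {D : Type*} [Group D] [Finite D] (h2 : IsPGroup 2 D)
    (hgen : ∃ a b : D, closure ({a, b} : Set D) = ⊤) (W : Subgroup D) [W.Normal] (hW : W.index = 8)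
    {q g : D} (hq : g * q * g⁻¹ * q⁻¹ ∉ W) : ∃ x, closure ({q, x} : Set D) = ⊤ := by
  have : Fact (Nat.Prime 2) := ⟨Nat.prime_two⟩
  -- the centralizer of `g` modulo `W`
  obtain ⟨M0, hM0, hqM0⟩ : ∃ M0 : Subgroup D, M0.index = 2 ∧ q ∉ M0 := by
    set g' : D ⧸ W := (g : D ⧸ W) with hg'
    set q' : D ⧸ W := (q : D ⧸ W) with hq'
    have hne : g' * q' ≠ q' * g' := by
      intro h
      apply hq
      have : ((g * q * g⁻¹ * q⁻¹ : D) : D ⧸ W) = 1 := by
        rw [QuotientGroup.mk_mul, QuotientGroup.mk_mul, QuotientGroup.mk_mul,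
          QuotientGroup.mk_inv, QuotientGroup.mk_inv]
        change g' * q' * g'⁻¹ * q'⁻¹ = 1
        rw [h]; group
      exact (QuotientGroup.eq_one_iff _).1 this
    set C : Subgroup (D ⧸ W) := centralizer {g'} with hC
    have hcard : Nat.card (D ⧸ W) = 8 := hW
    have hqC : q' ∉ C := by
      rw [hC, Subgroup.mem_centralizer_singleton_iff]
      intro h; exact hne h.symm
    have hgC : g' ∈ C := by
      rw [hC, Subgroup.mem_centralizer_singleton_iff]
    have hZC : center (D ⧸ W) ≤ C := Subgroup.center_le_centralizer _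
    have hgZ : g' ∉ center (D ⧸ W) := by
      intro h
      exact hne ((Subgroup.mem_center_iff.1 h q').symm)
    have h2' : IsPGroup 2 (D ⧸ W) := h2.to_quotient W
    have : Nontrivial (D ⧸ W) := by
      rw [← Finite.one_lt_card_iff_nontrivial, hcard]; norm_num
    have hZ1 : 1 < Nat.card (center (D ⧸ W)) := by
      have := h2'.center_nontrivial
      exact Finite.one_lt_card
    have hdvdZ : Nat.card (center (D ⧸ W)) ∣ Nat.card C := Subgroup.card_dvd_of_le hZC
    have hneZ : Nat.card (center (D ⧸ W)) ≠ Nat.card C := by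
      intro h
      apply hgZ
      rw [Subgroup.eq_of_le_of_card_ge hZC h.ge]
      exact hgC
    have hdvdC : Nat.card C ∣ 8 := by rw [← hcard]; exact Subgroup.card_subgroup_dvd_card C
    have hC8 : Nat.card C ≠ 8 := by
      intro h
      apply hqC
      rw [Subgroup.eq_top_of_card_eq C (by rw [h, hcard])]
      trivial
    have hC4 : Nat.card C = 4 := by
      have h1 : Nat.card C ≤ 8 := Nat.le_of_dvd (by norm_num) hdvdC
      obtain ⟨m, hm⟩ := hdvdZ
      have hpos : 0 < Nat.card C := Nat.card_pos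
      have hm0 : m ≠ 0 := by rintro rfl; rw [mul_zero] at hm; omega
      have hm1 : m ≠ 1 := by rintro rfl; exact hneZ (by rw [hm, mul_one])
      have : 4 ≤ Nat.card C := by rw [hm]; nlinarith [Nat.two_le_iff m |>.2 ⟨hm0, hm1⟩]
      interval_cases hc : Nat.card C <;> first | rfl | omega
    refine ⟨C.comap (QuotientGroup.mk' W), ?_, ?_⟩
    · rw [Subgroup.index_comap_of_surjective _ (QuotientGroup.mk'_surjective W)]
      have := C.card_mul_index
      rw [hC4, hcard] at this
      omega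
    · rw [Subgroup.mem_comap]; exact hqC
  obtain ⟨a, b, hab⟩ := hgen
  -- an element of `M0` outside the Frattini subgroup
  have key : ∀ x : D, (∀ M : Subgroup D, M.index = 2 → x ∈ M →
      (a ∈ M ↔ a ∈ M0) ∧ (b ∈ M ↔ b ∈ M0)) → ∃ x, closure ({q, x} : Set D) = ⊤ := by
    intro x hx
    by_contra hcon
    push Not at hcon
    obtain ⟨M, hM, hM2⟩ := exists_index_two h2 (hcon x)
    have hqM : q ∈ M := hM (Subgroup.subset_closure (by simp))
    have hxM : x ∈ M := hM (Subgroup.subset_closure (by simp))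
    obtain ⟨h1, h2⟩ := hx M hM2 hxM
    rw [eq_of_index_two hab hM2 hM0 h1 h2] at hqM
    exact hqM0 hqM
  have hnot : ∀ M : Subgroup D, M.index = 2 → ¬ (a ∈ M ∧ b ∈ M) := by
    rintro M hM ⟨ha, hb⟩
    have : closure ({a, b} : Set D) ≤ M := by
      rw [Subgroup.closure_le]
      rintro x (rfl | hx)
      · exact ha
      · rw [Set.mem_singleton_iff] at hx; subst hx; exact hb
    rw [hab, top_le_iff] at this
    rw [this, Subgroup.index_top] at hM
    omega
  by_cases ha : a ∈ M0
  · have hb : b ∉ M0 := fun hb => hnot M0 hM0 ⟨ha, hb⟩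
    refine key a fun M hM haM => ⟨by simp [ha, haM], ?_⟩
    have : b ∉ M := fun hb => hnot M hM ⟨haM, hb⟩
    simp [this, hb]
  · by_cases hb : b ∈ M0
    · refine key b fun M hM hbM => ⟨?_, by simp [hb, hbM]⟩
      have : a ∉ M := fun ha => hnot M hM ⟨ha, hbM⟩
      simp [this, ha]
    · refine key (a * b) fun M hM habM => ?_
      rw [Subgroup.mul_mem_iff_of_index_two hM] at habM
      have h1 : a ∉ M := fun h => hnot M hM ⟨h, habM.1 h⟩
      have h2 : b ∉ M := fun h => hnot M hM ⟨habM.2 h, h⟩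
      simp [h1, h2, ha, hb]

end Cfsg.Agent.H538.Two
end

-- part: H547/Two/T5
section
/-!
# S4543, task T5 (`|Q| = 16` abelian)
-/

set_option autoImplicit false
set_option linter.unusedSectionVars false

namespace Cfsg.Agent.H547.Two

open Subgroup Cfsg.Agent.H617.Two

section
variable {D : Type*} [Group D] [Finite D] {Q R : Subgroup D} {y p q : D}

theorem yN (h : Str Q R y p q) (hs : p * p = 1) : y ∈ normalizer (Q : Set D) := by
  have hyp : y * p * y⁻¹ = p := by rw [h.yp, hs, one_mul]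
  apply mem_normalizer_fintype
  intro n hn
  obtain ⟨r, hr, h1⟩ := h.cover n hn
  have hry := h.RQ (h.yR r hr)
  rcases h1 with rfl | rfl | rfl | rfl
  · exact hry
  · have : y * (p * r) * y⁻¹ = (y * p * y⁻¹) * (y * r * y⁻¹) := by group
    rw [this, hyp]
    exact Q.mul_mem h.pQ hry
  · have : y * (q * r) * y⁻¹ = (y * q * y⁻¹) * (y * r * y⁻¹) := by group
    rw [this, h.yq]
    exact Q.mul_mem (Q.mul_mem h.pQ h.qQ) hry
  · have : y * (p * q * r) * y⁻¹ = (y * p * y⁻¹) * (y * q * y⁻¹) * (y * r * y⁻¹) := by group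
    rw [this, hyp, h.yq]
    exact Q.mul_mem (Q.mul_mem h.pQ (Q.mul_mem h.pQ h.qQ)) hry

theorem conjN (hG : Nat.card D = 64) (hN : Nat.card (normalizer (Q : Set D)) = 32) {g n : D}
    (hn : n ∈ normalizer (Q : Set D)) : g * n * g⁻¹ ∈ normalizer (Q : Set D) := by
  rw [idxN hG hN, idxN hG hN, inv_mem_iff]
  simp [hn]

/-- elements of `N - Q` act on `Q` as `y` does -/
theorem act_eq (h : Str Q R y p q) (hQ : Nat.card Q = 16)
    (hN : Nat.card (normalizer (Q : Set D)) = 32) (hs : p * p = 1) {n x : D}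
    (hn : n ∈ normalizer (Q : Set D)) (hnQ : n ∉ Q) (hx : x ∈ Q) :
    n * x * n⁻¹ = y * x * y⁻¹ := by
  have hy := yN h hs
  have h1 : y⁻¹ * n ∈ Q := by
    rw [idxQ hQ hN (inv_mem hy) hn, inv_mem_iff]
    have := h.yQ
    tauto
  obtain ⟨w, hw, rfl⟩ : ∃ w ∈ Q, n = y * w := ⟨_, h1, by group⟩
  have h2 : w * x * w⁻¹ = x := by
    rw [commQ h hQ hs hw hx]; group
  calc y * w * x * (y * w)⁻¹ = y * (w * x * w⁻¹) * y⁻¹ := by group
    _ = _ := by rw [h2]

/-- (A1) -/
theorem memA1 (h : Str Q R y p q) (hG : Nat.card D = 64) (hQ : Nat.card Q = 16)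
    (hN : Nat.card (normalizer (Q : Set D)) = 32) (hs : p * p = 1) {g x : D}
    (hg : g ∉ normalizer (Q : Set D)) (hx : x ∈ Q) (hx' : g⁻¹ * x * g ∈ Q) :
    y * x * y⁻¹ = x := by
  have h1 : ∃ c ∈ Q, g * c * g⁻¹ ∉ Q := by
    by_contra! hcon
    exact hg (mem_normalizer_fintype hcon)
  obtain ⟨c, hc, hc'⟩ := h1
  rw [← act_eq h hQ hN hs (conjN hG hN (le_normalizer hc)) hc' hx]
  have h2 : c * (g⁻¹ * x * g) = (g⁻¹ * x * g) * c := commQ h hQ hs hc hx'
  calc g * c * g⁻¹ * x * (g * c * g⁻¹)⁻¹ = g * (c * (g⁻¹ * x * g)) * c⁻¹ * g⁻¹ := by group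
    _ = x := by rw [h2]; group

theorem q_not (h : Str Q R y p q) : ¬ (q ∈ R ∨ p * q ∈ R) := by
  have := h.qR
  have := h.pqR
  tauto

/-- (A2) -/
theorem memA2 (h : Str Q R y p q) (hG : Nat.card D = 64) (hQ : Nat.card Q = 16)
    (hN : Nat.card (normalizer (Q : Set D)) = 32) (hs : p * p = 1) {g x : D}
    (hg : g ∉ normalizer (Q : Set D)) (hx : x ∈ Q) (hx' : x ∈ R ∨ p * x ∈ R) :
    g⁻¹ * x * g ∈ Q := by
  by_contra hcon
  have hxN : g⁻¹ * x * g ∈ normalizer (Q : Set D) := by
    have := conjN hG hN (g := g⁻¹) (le_normalizer hx)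
    rwa [inv_inv] at this
  have hqN : g⁻¹ * q * g ∈ normalizer (Q : Set D) := by
    have := conjN hG hN (g := g⁻¹) (le_normalizer h.qQ)
    rwa [inv_inv] at this
  have hqQ : g⁻¹ * q * g ∉ Q := fun h1 =>
    q_not h (mem_of_comm h hs h.qQ (memA1 h hG hQ hN hs hg h.qQ h1))
  have h2 : (g⁻¹ * q * g) * (g⁻¹ * x * g) ∈ Q := by
    rw [idxQ hQ hN hqN hxN]; tauto
  have h3 : g⁻¹ * (q * x) * g ∈ Q := by
    have : (g⁻¹ * q * g) * (g⁻¹ * x * g) = g⁻¹ * (q * x) * g := by group
    rwa [this] at h2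
  exact not_mem_of h hs hx' (mem_of_comm h hs (Q.mul_mem h.qQ hx)
    (memA1 h hG hQ hN hs hg (Q.mul_mem h.qQ hx) h3))

theorem exists_not_mem (hG : Nat.card D = 64)
    (hN : Nat.card (normalizer (Q : Set D)) = 32) : ∃ g : D, g ∉ normalizer (Q : Set D) := by
  by_contra! hcon
  have : normalizer (Q : Set D) = ⊤ := eq_top_iff.2 fun x _ => hcon x
  rw [this, Subgroup.card_top] at hN
  omega

/-- (A3) -/
theorem memA3 (h : Str Q R y p q) (hG : Nat.card D = 64) (hQ : Nat.card Q = 16)
    (hN : Nat.card (normalizer (Q : Set D)) = 32) (hs : p * p = 1) {x : D}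
    (hx : x ∈ Q) (hx' : x ∈ R ∨ p * x ∈ R) : y * x * y⁻¹ = x := by
  obtain ⟨g, hg⟩ := exists_not_mem hG hN
  exact memA1 h hG hQ hN hs hg hx (memA2 h hG hQ hN hs hg hx hx')

/-- the centre of `N_D(Q)` as a subgroup of `D` -/
def W (Q : Subgroup D) : Subgroup D :=
  normalizer (Q : Set D) ⊓ centralizer ((normalizer (Q : Set D) : Subgroup D) : Set D)

theorem mem_W (h : Str Q R y p q) (hG : Nat.card D = 64) (hQ : Nat.card Q = 16)
    (hN : Nat.card (normalizer (Q : Set D)) = 32) (hs : p * p = 1) {x : D} :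
    x ∈ W Q ↔ x ∈ Q ∧ (x ∈ R ∨ p * x ∈ R) := by
  have hy := yN h hs
  unfold W
  rw [mem_inf, mem_centralizer_iff]
  constructor
  · rintro ⟨h1, h2⟩
    have h3 : x ∈ Q := by
      by_contra hcon
      have h4 := act_eq h hQ hN hs h1 hcon h.qQ
      rw [h.yq] at h4
      have h5 := h2 q (le_normalizer h.qQ)
      rw [← h5] at h4
      have h6 : q = p * q := by rw [← h4]; group
      have h7 : p = 1 := by
        have : 1 * q = p * q := by rw [one_mul]; exact h6
        exact (mul_right_cancel this).symm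
      exact h.pR (h7 ▸ R.one_mem)
    refine ⟨h3, mem_of_comm h hs h3 ?_⟩
    rw [h2 y hy]; group
  · rintro ⟨h1, h2⟩
    refine ⟨le_normalizer h1, fun n hn => ?_⟩
    by_cases hnQ : n ∈ Q
    · exact commQ h hQ hs hnQ h1
    · have h3 := act_eq h hQ hN hs hn hnQ h1
      rw [memA3 h hG hQ hN hs h1 h2] at h3
      calc n * x = (n * x * n⁻¹) * n := by group
        _ = _ := by rw [h3]

theorem W_normal (hG : Nat.card D = 64) (hN : Nat.card (normalizer (Q : Set D)) = 32) :
    (W Q).Normal := by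
  have h1 : (normalizer (Q : Set D)).Normal := ⟨fun n hn g => conjN hG hN hn⟩
  unfold W
  infer_instance

theorem W_index (h : Str Q R y p q) (hG : Nat.card D = 64) (hQ : Nat.card Q = 16)
    (hN : Nat.card (normalizer (Q : Set D)) = 32) (hs : p * p = 1) : (W Q).index = 8 := by
  have hpq : p * q = q * p := by have := h.comm; rwa [hs, one_mul] at this
  have hle : W Q ≤ Q := fun x hx => ((mem_W h hG hQ hN hs).1 hx).1
  have h1 : ((W Q).subgroupOf Q).index = 2 := by
    rw [Subgroup.index_eq_two_iff]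
    refine ⟨⟨q, h.qQ⟩, fun b => ?_⟩
    have hb := b.2
    have h2 : ∀ x : Q, x ∈ (W Q).subgroupOf Q ↔ ((x : D) ∈ R ∨ p * (x : D) ∈ R) := by
      intro x
      rw [mem_subgroupOf, mem_W h hG hQ hN hs]
      exact ⟨fun a => a.2, fun a => ⟨x.2, a⟩⟩
    rw [h2, h2]
    have h3 : ((b * (⟨q, h.qQ⟩ : Q) : Q) : D) = q * (b : D) := commQ h hQ hs hb h.qQ
    rw [h3]
    by_cases h4 : ((b : D) ∈ R ∨ p * (b : D) ∈ R)
    · exact Or.inr ⟨h4, not_mem_of h hs h4⟩
    · refine Or.inl ⟨?_, h4⟩
      obtain ⟨r, hr, h5⟩ := h.cover b hb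
      rcases h5 with h5 | h5 | h5 | h5
      · exact absurd (Or.inl (h5 ▸ hr)) h4
      · refine absurd (Or.inr ?_) h4
        rw [h5, ← mul_assoc, hs, one_mul]; exact hr
      · left
        rw [h5, ← mul_assoc, h.qq, hs, one_mul]; exact hr
      · right
        have : p * (q * (b : D)) = r := by
          rw [h5]
          calc p * (q * (p * q * r)) = (p * (q * p)) * q * r := by group
            _ = (p * (p * q)) * q * r := by rw [hpq]
            _ = (p * p) * (q * q) * r := by group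
            _ = r := by rw [h.qq, hs]; group
        rw [this]; exact hr
  have h2 := Subgroup.card_mul_index ((W Q).subgroupOf Q)
  have h3 : Nat.card ((W Q).subgroupOf Q) = Nat.card (W Q) :=
    Nat.card_congr (Subgroup.subgroupOfEquivOfLe hle).toEquiv
  rw [h1, h3, hQ] at h2
  have h4 := Subgroup.card_mul_index (W Q)
  rw [hG] at h4
  have h5 : Nat.card (W Q) = 8 := by omega
  rw [h5] at h4
  omega

/-- what T0 needs -/
theorem for_T0 (h : Str Q R y p q) (hG : Nat.card D = 64) (hQ : Nat.card Q = 16)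
    (hN : Nat.card (normalizer (Q : Set D)) = 32) (hs : p * p = 1) :
    ∃ g : D, g * q * g⁻¹ * q⁻¹ ∉ W Q := by
  obtain ⟨g, hg⟩ := exists_not_mem hG hN
  refine ⟨g⁻¹, fun h1 => ?_⟩
  have h2 := ((mem_W h hG hQ hN hs).1 h1).1
  have h3 : g⁻¹ * q * g ∈ Q := by
    have := Q.mul_mem h2 h.qQ
    rw [inv_inv] at this
    simpa using this
  exact q_not h (mem_of_comm h hs h.qQ (memA1 h hG hQ hN hs hg h.qQ h3))

/-- T5, once `D = ⟨q, g⟩` -/
theorem T5core (h : Str Q R y p q) (hG : Good D) (hQ : Nat.card Q = 16)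
    (hN : Nat.card (normalizer (Q : Set D)) = 32) (hs : p * p = 1) {g : D}
    (hgen : closure ({q, g} : Set D) = ⊤) : False := by
  have h64 := hG.card
  have hpq : p * q = q * p := by have := h.comm; rwa [hs, one_mul] at this
  have hqq : q * q = 1 := by rw [h.qq, hs]
  have hp1 : p ≠ 1 := fun h0 => h.pR (h0 ▸ R.one_mem)
  have hWN := W_normal (Q := Q) h64 hN
  have hQN : ∀ {x : D}, x ∈ Q → x ∈ normalizer (Q : Set D) := fun hx => le_normalizer hx
  have hgN : g ∉ normalizer (Q : Set D) := by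
    intro h0
    obtain ⟨x, hx⟩ := exists_not_mem h64 hN
    apply hx
    have h1 : closure ({q, g} : Set D) ≤ normalizer (Q : Set D) := by
      rw [closure_le]
      rintro z (rfl | hz)
      · exact hQN h.qQ
      · rw [Set.mem_singleton_iff] at hz; subst hz; exact h0
    exact h1 (by rw [hgen]; trivial)
  have hgi : g⁻¹ ∉ normalizer (Q : Set D) := fun h0 => hgN ((inv_mem_iff).1 h0)
  have hggN : g * g ∈ normalizer (Q : Set D) := by
    rw [idxN h64 hN]
  -- elements of Q conjugated into Q by g lie in W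
  have hgQ : ∀ x ∈ Q, g * x * g⁻¹ ∈ Q → x ∈ W Q := by
    intro x hx hx'
    rw [mem_W h h64 hQ hN hs]
    refine ⟨hx, mem_of_comm h hs hx (memA1 h h64 hQ hN hs hgi hx ?_)⟩
    rwa [inv_inv]
  have hpW : p ∈ W Q := (mem_W h h64 hQ hN hs).2 ⟨h.pQ, Or.inr (by rw [hs]; exact R.one_mem)⟩
  have hRW : ∀ r ∈ R, r ∈ W Q := fun r hr =>
    (mem_W h h64 hQ hN hs).2 ⟨h.RQ hr, Or.inl hr⟩
  have hqW : q ∉ W Q := fun h0 => q_not h ((mem_W h h64 hQ hN hs).1 h0).2
  have hWc : ∀ w ∈ W Q, ∀ n ∈ normalizer (Q : Set D), n * w = w * n := by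
    intro w hw n hn
    exact (mem_centralizer_iff.1 (mem_inf.1 hw).2) n hn
  obtain ⟨t, ht⟩ : ∃ t, t = g * q * g⁻¹ := ⟨_, rfl⟩
  have htN : t ∈ normalizer (Q : Set D) := ht ▸ conjN h64 hN (hQN h.qQ)
  have htQ : t ∉ Q := fun h0 => hqW (hgQ q h.qQ (ht ▸ h0))
  have htt : t * t = 1 := by
    calc t * t = g * (q * q) * g⁻¹ := by rw [ht]; group
      _ = 1 := by rw [hqq]; group
  have hti : t⁻¹ = t := inv_eq_of_mul_eq_one_right htt
  have hqi : q⁻¹ = q := inv_eq_of_mul_eq_one_right hqq
  have hpi : p⁻¹ = p := inv_eq_of_mul_eq_one_right hs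
  have htq : t * q * t⁻¹ = p * q := by rw [act_eq h hQ hN hs htN htQ h.qQ, h.yq]
  have htq' : t * q = p * (q * t) := by
    calc t * q = (t * q * t⁻¹) * t := by group
      _ = _ := by rw [htq, mul_assoc]
  have hpt : p * t = t * p := (hWc p hpW t htN).symm
  -- conjugation of `q` by elements of `N`
  have hNq : ∀ n ∈ normalizer (Q : Set D), n * q * n⁻¹ = q ∨ n * q * n⁻¹ = p * q := by
    intro n hn
    by_cases hnQ : n ∈ Q
    · left; rw [commQ h hQ hs hnQ h.qQ]; group
    · right; rw [act_eq h hQ hN hs hn hnQ h.qQ, h.yq]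
  have hgt : g * t * g⁻¹ = q ∨ g * t * g⁻¹ = p * q := by
    have h1 := hNq (g * g) hggN
    have h2 : g * g * q * (g * g)⁻¹ = g * t * g⁻¹ := by rw [ht]; group
    rwa [h2] at h1
  -- `p` is central
  have hgp : g * p * g⁻¹ = p := by
    have h1 : p = t * q * t⁻¹ * q⁻¹ := by rw [htq]; group
    have h2 : g * p * g⁻¹ = (g * t * g⁻¹) * t * (g * t * g⁻¹)⁻¹ * t⁻¹ := by
      conv_lhs => rw [h1]
      rw [ht]; group
    have h3 : q * t * q⁻¹ * t⁻¹ = p := by
      rw [← hpi, h1]; group
    rw [h2]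
    rcases hgt with h4 | h4
    · rw [h4, h3]
    · rw [h4]
      calc p * q * t * (p * q)⁻¹ * t⁻¹ = p * (q * t * q⁻¹ * (p⁻¹ * t⁻¹)) := by group
        _ = p * (q * t * q⁻¹ * (t⁻¹ * p⁻¹)) := by
            rw [show p⁻¹ * t⁻¹ = t⁻¹ * p⁻¹ by rw [← mul_inv_rev, ← mul_inv_rev, hpt]]
        _ = p * (q * t * q⁻¹ * t⁻¹) * p⁻¹ := by group
        _ = p := by rw [h3]; group
  have cen : ∀ x : D, x * q = q * x → g * x * g⁻¹ = x → x ∈ center D := by
    intro x h1 h2
    have h3 : closure ({q, g} : Set D) ≤ centralizer {x} := by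
      rw [closure_le]
      rintro z (rfl | hz)
      · rw [SetLike.mem_coe, mem_centralizer_singleton_iff]; exact h1.symm
      · rw [Set.mem_singleton_iff] at hz; subst hz
        rw [SetLike.mem_coe, mem_centralizer_singleton_iff]
        calc z * x = (z * x * z⁻¹) * z := by group
          _ = x * z := by rw [h2]
    rw [hgen] at h3
    rw [mem_center_iff]
    intro z
    exact (mem_centralizer_singleton_iff.1 (h3 (mem_top z)))
  have hpc : p ∈ center D := cen p hpq hgp
  set K := closure ({q, t} : Set D) with hK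
  have hqK : q ∈ K := subset_closure (by simp)
  have htK : t ∈ K := subset_closure (by simp)
  have hpK : p ∈ K := by
    have : p = t * q * t⁻¹ * q⁻¹ := by rw [htq]; group
    rw [this]
    exact K.mul_mem (K.mul_mem (K.mul_mem htK hqK) (K.inv_mem htK)) (K.inv_mem hqK)
  have h4 : g ^ 4 ∉ K := by
    rw [hK, ht]
    refine pow_four_not_mem h64 hgen hs hqq hpc (by rw [← ht]; exact htq') ?_
    rw [← ht]
    change g * t * g⁻¹ ∈ K
    rcases hgt with h5 | h5 <;> rw [h5]
    · exact hqK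
    · exact K.mul_mem hpK hqK
  -- `g² = k r`
  obtain ⟨k, r, hr, hgg, hk⟩ : ∃ k r, r ∈ R ∧ g * g = k * r ∧
      ∃ i : Fin 2, ∃ k' : D, k = t ^ (i : ℕ) * k' ∧ (k' = 1 ∨ k' = p ∨ k' = q ∨ k' = p * q) := by
    by_cases h5 : g * g ∈ Q
    · obtain ⟨r, hr, h6⟩ := h.cover _ h5
      rcases h6 with h6 | h6 | h6 | h6
      · exact ⟨1, r, hr, by rw [one_mul]; exact h6, 0, 1, by simp, by simp⟩
      · exact ⟨p, r, hr, h6, 0, p, by simp, by simp⟩
      · exact ⟨q, r, hr, h6, 0, q, by simp, by simp⟩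
      · exact ⟨p * q, r, hr, h6, 0, p * q, by simp, by simp⟩
    · have h7 : t * (g * g) ∈ Q := by
        rw [idxQ hQ hN htN hggN]; tauto
      have h8 : ∀ x, t * (g * g) = x → g * g = t * x := by
        intro x hx
        rw [← hx, ← mul_assoc t t, htt, one_mul]
      obtain ⟨r, hr, h6⟩ := h.cover _ h7
      rcases h6 with h6 | h6 | h6 | h6
      · exact ⟨t, r, hr, h8 _ h6, 1, 1, by simp, by simp⟩
      · exact ⟨t * p, r, hr, by rw [h8 _ h6, mul_assoc], 1, p, by simp, by simp⟩
      · exact ⟨t * q, r, hr, by rw [h8 _ h6, mul_assoc], 1, q, by simp, by simp⟩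
      · exact ⟨t * (p * q), r, hr, by rw [h8 _ h6, mul_assoc t], 1, p * q, by simp, by simp⟩
  have hkK : k ∈ K := by
    obtain ⟨i, k', rfl, hk'⟩ := hk
    refine K.mul_mem (K.pow_mem htK _) ?_
    rcases hk' with rfl | rfl | rfl | rfl
    · exact one_mem _
    · exact hpK
    · exact hqK
    · exact K.mul_mem hpK hqK
  have hrW := hRW r hr
  have hKN : K ≤ normalizer (Q : Set D) := by
    rw [hK, closure_le]
    rintro z (rfl | hz)
    · exact hQN h.qQ
    · rw [Set.mem_singleton_iff] at hz; subst hz; exact htN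
  have hkr : k * r = r * k := hWc r hrW k (hKN hkK)
  have hg4 : g ^ 4 = k * k * (r * r) := by
    calc g ^ 4 = (g * g) * (g * g) := by simp only [pow_succ, pow_zero, one_mul, mul_assoc]
      _ = k * (r * k) * r := by rw [hgg]; group
      _ = _ := by rw [← hkr]; group
  -- g conj of r
  have hgrW : g * r * g⁻¹ ∈ W Q := hWN.conj_mem r hrW g
  have hgkr : (g * k * g⁻¹) * (g * r * g⁻¹) = k * r := by
    calc (g * k * g⁻¹) * (g * r * g⁻¹) = g * (k * r) * g⁻¹ := by group
      _ = g * (g * g) * g⁻¹ := by rw [hgg]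
      _ = g * g := by group
      _ = _ := hgg
  have hgkK : g * k * g⁻¹ ∈ K := by
    have h5 : K ≤ K.comap (MulAut.conj g).toMonoidHom := by
      rw [hK, closure_le]
      rintro x (rfl | hx)
      · simpa [MulAut.conj_apply, ← ht] using htK
      · rw [Set.mem_singleton_iff] at hx; rw [hx]
        have : g * t * g⁻¹ ∈ K := by
          rcases hgt with h5 | h5 <;> rw [h5]
          · exact hqK
          · exact K.mul_mem hpK hqK
        simpa [MulAut.conj_apply] using this
    simpa [MulAut.conj_apply] using h5 hkK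
  -- K ∩ W = {1, p}
  have hKW : ∀ x ∈ K, x ∈ W Q → x = 1 ∨ x = p := by
    intro x hx hxW
    obtain ⟨i, j, l, rfl⟩ := mem_clo hs hqq htt hpq hpt htq' hx
    have hxQ := ((mem_W h h64 hQ hN hs).1 hxW).1
    have hpi' : p ^ (i : ℕ) ∈ W Q := pow_mem hpW _
    rw [mul_assoc, (W Q).mul_mem_cancel_left hpi'] at hxW
    have hl : l = 0 := by
      by_contra hl
      have hl : l = 1 := by omega
      subst hl
      have h6 : q ^ (j : ℕ) ∈ Q := Q.pow_mem h.qQ _
      have h7 := ((mem_W h h64 hQ hN hs).1 hxW).1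
      rw [Q.mul_mem_cancel_left h6] at h7
      exact htQ (by simpa using h7)
    subst hl
    have hj : j = 0 := by
      by_contra hj
      have hj : j = 1 := by omega
      subst hj
      exact hqW (by simpa using hxW)
    subst hj
    have hi : i = 0 ∨ i = 1 := by omega
    rcases hi with rfl | rfl
    · left; simp
    · right; simp
  have h5 : (g * r * g⁻¹) * r⁻¹ ∈ K := by
    have : (g * r * g⁻¹) * r⁻¹ = (g * k * g⁻¹)⁻¹ * k := by
      have h6 : g * r * g⁻¹ = (g * k * g⁻¹)⁻¹ * (k * r) := by rw [← hgkr]; group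
      rw [h6]; group
    rw [this]
    exact K.mul_mem (K.inv_mem hgkK) hkK
  rcases hKW _ h5 ((W Q).mul_mem hgrW ((W Q).inv_mem hrW)) with h6 | h6
  · -- r central
    have h7 : g * r * g⁻¹ = r := by
      rw [mul_inv_eq_one] at h6; exact h6
    have h8 : r ∈ center D := cen r (h.qc r hr).symm h7
    have h9 := hG.centre r h8
    rw [hg4, h9, mul_one] at h4
    exact h4 (K.mul_mem hkK hkK)
  · have h7 : g * r * g⁻¹ = p * r := by
      rw [mul_inv_eq_iff_eq_mul] at h6; exact h6
    have h8 : g * k * g⁻¹ = p * k := by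
      rw [h7] at hgkr
      have h9 : g * k * g⁻¹ * p = k := by
        apply mul_right_cancel (b := r)
        rw [mul_assoc]; exact hgkr
      have h10 : g * k * g⁻¹ = k * p := by
        calc g * k * g⁻¹ = (g * k * g⁻¹) * (p * p) := by rw [hs, mul_one]
          _ = _ := by rw [← mul_assoc, h9]
      rw [h10]; exact mem_center_iff.1 hpc k
    have hpg : ∀ x : D, g * (p * x) * g⁻¹ = p * (g * x * g⁻¹) := by
      intro x
      calc g * (p * x) * g⁻¹ = (g * p * g⁻¹) * (g * x * g⁻¹) := by group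
        _ = _ := by rw [hgp]
    have hpne : ∀ x : D, x ≠ p * x := by
      intro x hx
      apply hp1
      have : 1 * x = p * x := by rw [one_mul]; exact hx
      exact (mul_right_cancel this).symm
    -- conj of t is conj of q by k
    have hgt2 : g * t * g⁻¹ = k * q * k⁻¹ := by
      have h2 : g * t * g⁻¹ = g * g * q * (g * g)⁻¹ := by rw [ht]; group
      rw [h2, hgg]
      calc k * r * q * (k * r)⁻¹ = k * (r * q) * r⁻¹ * k⁻¹ := by group
        _ = k * (q * r) * r⁻¹ * k⁻¹ := by rw [h.qc r hr]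
        _ = _ := by group
    have hgtQ : g * t * g⁻¹ ∈ Q := by
      rcases hgt with h9 | h9 <;> rw [h9]
      · exact h.qQ
      · exact Q.mul_mem h.pQ h.qQ
    obtain ⟨i, k', rfl, hk'⟩ := hk
    have hi : i = 0 ∨ i = 1 := by omega
    rcases hi with rfl | rfl
    · simp only [Fin.val_zero, pow_zero, one_mul] at h8
      rcases hk' with hk' | hk' | hk' | hk' <;> rw [hk'] at h8
      · exact hpne 1 (by rw [← h8]; group)
      · rw [hgp] at h8; exact hpne _ h8
      · exact htQ (by rw [← ht] at h8; rw [h8]; exact Q.mul_mem h.pQ h.qQ)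
      · rw [hpg, ← ht] at h8
        have := mul_left_cancel h8
        exact htQ (by rw [this]; exact Q.mul_mem h.pQ h.qQ)
    · simp only [Fin.val_one, pow_one] at h8 hgt2
      rcases hk' with hk' | hk' | hk' | hk' <;> rw [hk'] at h8 hgt2
      · rw [mul_one] at h8
        rw [h8] at hgtQ
        exact htQ ((Q.mul_mem_cancel_left h.pQ).1 hgtQ)
      · rw [← hpt, hpg] at h8
        have h9 := mul_left_cancel h8
        rw [h9] at hgtQ
        exact htQ ((Q.mul_mem_cancel_left h.pQ).1 hgtQ)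
      · -- k = t q
        have h9 : g * t * g⁻¹ = p * q := by
          rw [hgt2, mul_inv_rev, ← htq]; group
        have h10 : g * (t * q) * g⁻¹ = t * q := by
          calc g * (t * q) * g⁻¹ = (g * t * g⁻¹) * (g * q * g⁻¹) := by group
            _ = p * q * t := by rw [h9, ← ht]
            _ = t * q := by rw [htq', mul_assoc]
        rw [h10] at h8
        exact hpne _ h8
      · have h9 : g * t * g⁻¹ = p * q := by
          rw [hgt2, mul_inv_rev]
          calc t * (p * q) * q * ((p * q)⁻¹ * t⁻¹) = t * p * (q * p⁻¹) * t⁻¹ := by group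
            _ = t * p * (p⁻¹ * q) * t⁻¹ := by rw [hpi, hpq]
            _ = t * q * t⁻¹ := by group
            _ = _ := htq
        have h10 : g * (t * (p * q)) * g⁻¹ = t * (p * q) := by
          calc g * (t * (p * q)) * g⁻¹ = (g * t * g⁻¹) * (g * p * g⁻¹) * (g * q * g⁻¹) := by group
            _ = p * q * p * t := by rw [h9, hgp, ← ht]
            _ = p * (p * (q * t)) := by rw [mul_assoc p q p, ← hpq]; simp only [mul_assoc]
            _ = p * (t * q) := by rw [htq']
            _ = t * (p * q) := by rw [← mul_assoc, hpt, mul_assoc]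
        rw [h10] at h8
        exact hpne _ h8

end

/-- **T5**. -/
theorem T5 {D : Type*} [Group D] [Finite D] (hG : Good D) {Q R : Subgroup D} {y p q : D}
    (h : Str Q R y p q) (hQ : Nat.card Q = 16) (hN : Nat.card (normalizer (Q : Set D)) = 32)
    (hs : p * p = 1) : False := by
  have h2 : IsPGroup 2 D := IsPGroup.of_card (n := 6) (by rw [hG.card]; norm_num)
  obtain ⟨g, hg⟩ := for_T0 h hG.card hQ hN hs
  have hW : (W Q).Normal := W_normal hG.card hN
  obtain ⟨x, hx⟩ := Cfsg.Agent.H538.Two.T0 h2 hG.gen (W Q) (W_index h hG.card hQ hN hs) hg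
  exact T5core h hG hQ hN hs hx

end Cfsg.Agent.H547.Two
end
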